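import Cfsg.Agent.H90.Fxy.Tools
import Cfsg.Agent.H209.IF.Kill
import Cfsg.Agent.H417.JThreeCols
import Cfsg.Agent.H898.J3Cent

/-!
# S5719: the row `J₃`, `|A|` even (helper90)

`f ≤ 7`; `E = O₂(C(t)) = 2^(1+4)` is in `A` (11 involutions), so `f ≤ 4`; `C(t)` is generated by its elements of order 5, so
`C(t) ≤ A` (131 involutions): contradiction.
-/

set_option autoImplicit false
set_option maxRecDepth 100000
set_option linter.unusedSectionVars false

namespace Cfsg.Agent.H90.Fxy.JThree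

open MulAction Subgroup Cfsg Cfsg.Agent.H209.Fxy Cfsg.Agent.H999.IFB Cfsg.Agent.H90.Fxy
open Cfsg.Agent.J3Type.CodeGroup Cfsg.Agent.J3Type.CodeTab Cfsg.Agent.J3Type.CodeFacts

/-- pairs of elements of order 5 with product `x`, `x < 32` -/
def w1 : ℕ := 0xc1c84b0ba01c1c80301a0ac2a8070aa00c1c8130a201c1680304a04c048030d200c2882b08a01c1080300200c2e80307a00c0c80703200c3a80307a04c2880306200c0680701a00c1081301201c2280304a00c0080700200
/-- pairs of elements of order 5 with product `32 p` -/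
def w2 : ℕ := 0x880882a0200b00802e0240b40902002806808824020098080200220b80802d02007c0803602208008017024054090140280640803002206808023020088080390220440881202005008010020054088110200c8090300240980a017020050088150200b00d0390320e80c8380320d80c82e0340c80c8260340c00c82303e0880f8390400b00883a0200e4080380200b80883602008c090220240e40a032020098088300200

/-- first member -/
def fa (w i : ℕ) : ℕ := Nat.land (Nat.shiftRight w (Nat.mul 22 i)) 2047
/-- second member -/
def fb (w i : ℕ) : ℕ := Nat.land (Nat.shiftRight w (Nat.add (Nat.mul 22 i) 11)) 2047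

/-- `a`, `b` have order 5 and product `x` -/
def pr (a b x : ℕ) : Bool :=
  and (and (Nat.ble (Nat.succ a) 1920) (Nat.ble (Nat.succ b) 1920)) (and (and (Nat.ble 1 a) (Nat.ble 1 b))
    (and (and (Nat.beq (pw a 4) 0) (Nat.beq (pw b 4) 0)) (Nat.beq (mulN a b) x)))

theorem pr1 : allN 32 (fun i => or (Nat.beq i 16) (pr (fa w1 i) (fb w1 i) i)) = true := by decide +kernel
theorem pr2 : allN 60 (fun p => pr (fa w2 p) (fb w2 p) (Nat.mul 32 p)) = true := by decide +kernel

/-- the elements below 32 are closed under multiplication and inversion -/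
theorem cl : allN 32 (fun x => and (and (Nat.ble (Nat.succ (pw x 2)) 32) (Nat.beq (pw x 3) 0))
    (allN 32 fun y => Nat.ble (Nat.succ (mulN x y)) 32)) = true := by decide +kernel

theorem dec : allN 60 (fun p => allN 32 fun x =>
    Nat.beq (mulN x (Nat.mul 32 p)) (Nat.add (Nat.mul 32 p) x)) = true := by decide +kernel

theorem nrm : allN 60 (fun p => allN 32 fun x => and (Nat.ble (Nat.succ (act p x)) 32)
    (Nat.beq (mulN (Nat.mul 32 p) x) (mulN (act p x) (Nat.mul 32 p)))) = true := by decide +kernel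

theorem cntE : cnt (fun i => and (Nat.ble 1 i) (Nat.beq (pw i 1) 0)) 32 0 = 11 := by decide +kernel
theorem cntC : cnt (fun i => and (Nat.ble 1 i) (Nat.beq (pw i 1) 0)) 1920 0 = 131 := by decide +kernel
theorem sq1 : mulN 1 1 = 16 := by decide +kernel

section coded

variable {G : Type*} [Group G] {t : G} {D : ℕ → G}

theorem conj_coded (h : Coded t D) (c : G) : Coded (c * t * c⁻¹) (fun i => c * D i * c⁻¹) where
  inj i hi j hj e := h.inj i hi j hj (mul_left_cancel (mul_right_cancel e))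
  comm i hi := by
    have := h.comm i hi
    calc c * D i * c⁻¹ * (c * t * c⁻¹) = c * (D i * t) * c⁻¹ := by group
      _ = c * (t * D i) * c⁻¹ := by rw [this]
      _ = c * t * c⁻¹ * (c * D i * c⁻¹) := by group
  surj g hg := by
    have h1 : (c⁻¹ * g * c) * t = t * (c⁻¹ * g * c) := by
      calc (c⁻¹ * g * c) * t = c⁻¹ * (g * (c * t * c⁻¹)) * c := by group
        _ = c⁻¹ * ((c * t * c⁻¹) * g) * c := by rw [hg]
        _ = t * (c⁻¹ * g * c) := by group
    obtain ⟨i, hi, e⟩ := h.surj _ h1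
    exact ⟨i, hi, by rw [e]; group⟩
  mul i hi j hj := by
    have := h.mul i hi j hj
    calc c * D i * c⁻¹ * (c * D j * c⁻¹) = c * (D i * D j) * c⁻¹ := by group
      _ = _ := by rw [this]
  t_eq := by rw [h.t_eq]

theorem order_five (h : Coded t D) {a : ℕ} (ha : a < 1920) (h1 : 1 ≤ a) (h2 : pw a 4 = 0) : orderOf (D a) = 5 := by
  have : Fact (Nat.Prime 5) := ⟨by norm_num⟩
  refine orderOf_eq_prime ((h.pw_one ha 4).2 h2) fun e => ?_
  have := h.inj a ha 0 (by norm_num) (by rw [e, h.one])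
  omega

theorem pr_spec (h : Coded t D) {a b x : ℕ} (hp : pr a b x = true) :
    D a * D b = D x ∧ orderOf (D a) = 5 ∧ orderOf (D b) = 5 ∧ a < 1920 ∧ b < 1920 := by
  simp only [pr, Bool.and_eq_true] at hp
  obtain ⟨⟨h1, h2⟩, ⟨h3, h4⟩, ⟨h5, h6⟩, h7⟩ := hp
  have a1 := lt_of_blt h1
  have b1 := lt_of_blt h2
  have a2 := Nat.le_of_ble_eq_true h3
  have b2 := Nat.le_of_ble_eq_true h4
  refine ⟨?_, order_five h a1 a2 (eq_of_beq h5), order_five h b1 b2 (eq_of_beq h6), a1, b1⟩
  rw [h.mul a a1 b b1, eq_of_beq h7]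

theorem D_dec (h : Coded t D) {i : ℕ} (hi : i < 1920) : D i = D (i % 32) * D (32 * (i / 32)) := by
  have h1 : i / 32 < 60 := by omega
  have h2 : i % 32 < 32 := Nat.mod_lt _ (by norm_num)
  have h3 := eq_of_beq (allN_spec _ _ (allN_spec _ _ dec _ h1) _ h2)
  rw [h.mul _ (by omega) _ (by omega)]
  have h4 : mulN (i % 32) (32 * (i / 32)) = 32 * (i / 32) + i % 32 := h3
  rw [h4]
  congr 1
  omega

end coded

section row

variable {T : Type*} [Group T] [Finite T] {t : T} {D : ℕ → T}

theorem cl_spec {x : ℕ} (hx : x < 32) : pw x 2 < 32 ∧ pw x 3 = 0 ∧ ∀ y < 32, mulN x y < 32 := by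
  have h := allN_spec _ _ cl x hx
  simp only [Bool.and_eq_true] at h
  obtain ⟨⟨h1, h2⟩, h3⟩ := h
  exact ⟨lt_of_blt h1, eq_of_beq h2, fun y hy => lt_of_blt (allN_spec _ _ h3 y hy)⟩

/-- `O₂(C(t))` -/
def E (h : Coded t D) : Subgroup (centralizer ({t} : Set T)) where
  carrier := {c | ∃ x < 32, (c : T) = D x}
  one_mem' := ⟨0, by norm_num, by rw [h.one]; rfl⟩
  mul_mem' := by
    rintro a b ⟨x, hx, hax⟩ ⟨y, hy, hby⟩
    refine ⟨mulN x y, (cl_spec hx).2.2 y hy, ?_⟩
    rw [Subgroup.coe_mul, hax, hby, h.mul x (by omega) y (by omega)]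
  inv_mem' := by
    rintro a ⟨x, hx, hax⟩
    obtain ⟨h1, h2, -⟩ := cl_spec hx
    refine ⟨pw x 2, h1, ?_⟩
    rw [Subgroup.coe_inv, hax, h.pw (by omega : x < 1920) 2]
    have h3 : D x ^ (3 + 1) = 1 := (h.pw_one (by omega : x < 1920) 3).2 h2
    rw [pow_succ] at h3
    exact (eq_inv_of_mul_eq_one_left h3).symm

theorem mem_E (h : Coded t D) {c : centralizer ({t} : Set T)} : c ∈ E h ↔ ∃ x < 32, (c : T) = D x := Iff.rfl

theorem cen (h : Coded t D) {i : ℕ} (hi : i < 1920) : D i ∈ centralizer ({t} : Set T) := by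
  rw [Subgroup.mem_centralizer_singleton_iff]
  exact h.comm i hi

theorem exists_code (h : Coded t D) (c : centralizer ({t} : Set T)) : ∃ i < 1920, D i = c :=
  h.surj _ (Subgroup.mem_centralizer_singleton_iff.1 c.2)

instance normal_E (h : Coded t D) : (E h).Normal where
  conj_mem := by
    rintro n ⟨x, hx, hnx⟩ g
    obtain ⟨i, hi, hg⟩ := exists_code h g
    have h1 : i / 32 < 60 := by omega
    have h3 := allN_spec _ _ (allN_spec _ _ nrm _ h1) _ hx
    rw [Bool.and_eq_true] at h3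
    have h4 : act (i / 32) x < 32 := lt_of_blt h3.1
    have h5 : mulN (32 * (i / 32)) x = mulN (act (i / 32) x) (32 * (i / 32)) := eq_of_beq h3.2
    have h6 : D (32 * (i / 32)) * D x = D (act (i / 32) x) * D (32 * (i / 32)) := by
      rw [h.mul _ (by omega) _ (by omega), h.mul _ (by omega) _ (by omega), h5]
    -- `g = D e * D (32 p)`
    have he : (⟨D (i % 32), cen h (by omega)⟩ : centralizer ({t} : Set T)) ∈ E h := ⟨i % 32, Nat.mod_lt _ (by norm_num), rfl⟩
    have hy : (⟨D (act (i / 32) x), cen h (by omega)⟩ : centralizer ({t} : Set T)) ∈ E h := ⟨_, h4, rfl⟩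
    have h7 : g * n * g⁻¹ = ⟨D (i % 32), cen h (by omega)⟩ * ⟨D (act (i / 32) x), cen h (by omega)⟩ *
        (⟨D (i % 32), cen h (by omega)⟩)⁻¹ := by
      apply Subtype.ext
      simp only [Subgroup.coe_mul, Subgroup.coe_inv]
      rw [← hg, hnx, D_dec h hi]
      calc D (i % 32) * D (32 * (i / 32)) * D x * (D (i % 32) * D (32 * (i / 32)))⁻¹
          = D (i % 32) * (D (32 * (i / 32)) * D x) * (D (32 * (i / 32)))⁻¹ * (D (i % 32))⁻¹ := by group
        _ = _ := by rw [h6]; group
    rw [h7]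
    exact mul_mem (mul_mem he hy) (inv_mem he)

theorem card_E (h : Coded t D) : ∃ k, Nat.card (E h) = 2 ^ k := by
  have : Fact (Nat.Prime 2) := ⟨Nat.prime_two⟩
  apply (IsPGroup.iff_card (p := 2)).1
  rintro ⟨c, hc⟩
  obtain ⟨x, hx, hcx⟩ := hc
  refine ⟨2, ?_⟩
  apply Subtype.ext
  apply Subtype.ext
  show (c : T) ^ 2 ^ 2 = 1
  rw [hcx]
  exact (h.pw_one (by omega : x < 1920) 3).2 (cl_spec hx).2.1

theorem gen (h : Coded t D) (H : Subgroup (centralizer ({t} : Set T))) (hH : ∀ x, orderOf x = 5 → x ∈ H) : H = ⊤ := by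
  have key : ∀ a < 1920, orderOf (D a) = 5 → ∀ c : centralizer ({t} : Set T), (c : T) = D a → c ∈ H := by
    intro a _ h1 c hc
    apply hH
    rw [← orderOf_coe, hc, h1]
  have k1 : ∀ x < 32, x ≠ 16 → ∀ c : centralizer ({t} : Set T), (c : T) = D x → c ∈ H := by
    intro x hx hx' c hc
    have h1 := allN_spec _ _ pr1 x hx
    rw [Bool.or_eq_true] at h1
    rcases h1 with h1 | h1
    · exact absurd (eq_of_beq h1) hx'
    obtain ⟨h2, h3, h4, h5, h6⟩ := pr_spec h h1
    have h7 : c = ⟨D (fa w1 x), cen h h5⟩ * ⟨D (fb w1 x), cen h h6⟩ := Subtype.ext (by rw [hc, ← h2]; rfl)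
    rw [h7]
    exact mul_mem (key _ h5 h3 _ rfl) (key _ h6 h4 _ rfl)
  have k2 : ∀ x < 32, ∀ c : centralizer ({t} : Set T), (c : T) = D x → c ∈ H := by
    intro x hx c hc
    by_cases h16 : x = 16
    · subst h16
      have h1 : D 1 * D 1 = D 16 := by rw [h.mul 1 (by norm_num) 1 (by norm_num), sq1]
      have h7 : c = ⟨D 1, cen h (by norm_num)⟩ * ⟨D 1, cen h (by norm_num)⟩ := Subtype.ext (by rw [hc, ← h1]; rfl)
      rw [h7]
      have := k1 1 (by norm_num) (by norm_num) ⟨D 1, cen h (by norm_num)⟩ rfl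
      exact mul_mem this this
    · exact k1 x hx h16 c hc
  have k3 : ∀ p < 60, ∀ c : centralizer ({t} : Set T), (c : T) = D (32 * p) → c ∈ H := by
    intro p hp c hc
    have h1 := allN_spec _ _ pr2 p hp
    obtain ⟨h2, h3, h4, h5, h6⟩ := pr_spec h h1
    have h7 : c = ⟨D (fa w2 p), cen h h5⟩ * ⟨D (fb w2 p), cen h h6⟩ :=
      Subtype.ext (by rw [hc]; exact h2.symm)
    rw [h7]
    exact mul_mem (key _ h5 h3 _ rfl) (key _ h6 h4 _ rfl)
  rw [eq_top_iff]
  intro c _
  obtain ⟨i, hi, hc⟩ := exists_code h c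
  have h7 : c = ⟨D (i % 32), cen h (by omega)⟩ * ⟨D (32 * (i / 32)), cen h (by omega)⟩ :=
    Subtype.ext (by rw [← hc]; exact D_dec h hi)
  rw [h7]
  exact mul_mem (k2 _ (Nat.mod_lt _ (by norm_num)) _ rfl) (k3 _ (by omega) _ rfl)

/-- the involutions with codes below `n` -/
theorem ncard_inv (h : Coded t D) {n m : ℕ} (hn : n ≤ 1920)
    (hc : cnt (fun i => and (Nat.ble 1 i) (Nat.beq (pw i 1) 0)) n 0 = m) :
    {s : T | ∃ i < n, s = D i ∧ orderOf s = 2}.ncard = m := by
  rw [cnt_spec, zero_add] at hc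
  have h1 : {s : T | ∃ i < n, s = D i ∧ orderOf s = 2} =
      D '' ((Finset.range n).filter (fun i => and (Nat.ble 1 i) (Nat.beq (pw i 1) 0) = true) : Finset ℕ) := by
    have key : ∀ i < n, (orderOf (D i) = 2 ↔ (and (Nat.ble 1 i) (Nat.beq (pw i 1) 0) = true)) := by
      intro i hi
      have hi' : i < 1920 := lt_of_lt_of_le hi hn
      rw [Bool.and_eq_true, orderOf_eq_prime_iff]
      constructor
      · rintro ⟨h2, h3⟩
        refine ⟨?_, beq_of_eq ((h.pw_one hi' 1).1 h2)⟩
        apply Nat.ble_eq_true_of_le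
        by_contra h4
        have h5 : i = 0 := by omega
        apply h3
        rw [h5, h.one]
      · rintro ⟨h2, h3⟩
        refine ⟨(h.pw_one hi' 1).2 (eq_of_beq h3), fun e => ?_⟩
        have h4 := Nat.le_of_ble_eq_true h2
        have h5 := h.inj i hi' 0 (by norm_num) (by rw [e, h.one])
        omega
    ext s
    simp only [Set.mem_setOf_eq, Set.mem_image, Finset.coe_filter, Finset.mem_range]
    constructor
    · rintro ⟨i, hi, rfl, ho⟩
      exact ⟨i, ⟨hi, (key i hi).1 ho⟩, rfl⟩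
    · rintro ⟨i, ⟨hi, hb⟩, rfl⟩
      exact ⟨i, hi, rfl, (key i hi).2 hb⟩
  rw [h1, Set.ncard_image_of_injOn, Set.ncard_coe_finset, hc]
  intro i hi j hj e
  simp only [Finset.coe_filter, Finset.mem_range, Set.mem_setOf_eq] at hi hj
  exact h.inj i (by omega) j (by omega) e

/-- **S5719, the row `J₃`, `|A|` even.** -/
theorem killE [IsSimpleGroup T] (hJ : Spor.IsoJ3 T) : KillE T := by
  rintro A Γ h ⟨t, ht, h2⟩
  obtain ⟨t0, D0, hD0, hall⟩ := H417.JThreeCols.exists_coded_iso hJ
  obtain ⟨c, hc⟩ := isConj_iff.1 (hall t h2)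
  have hD := conj_coded hD0 c
  rw [hc] at hD
  set D : ℕ → T := fun i => c * D0 i * c⁻¹ with hDd
  have hcardT : Nat.card T = 50232960 := (H898.J3Cent.base hJ).2.1
  have hna : ∃ a b : T, a * b ≠ b * a := by
    by_contra hcon
    push Not at hcon
    have h3 := hD.inj 1 (by norm_num) 3 (by norm_num)
    have h4 : Nat.card (centralizer ({t} : Set T)) = Nat.card T := by
      have : centralizer ({t} : Set T) = ⊤ := by
        rw [eq_top_iff]
        intro g _
        rw [Subgroup.mem_centralizer_singleton_iff]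
        exact hcon g t
      rw [this, Subgroup.card_top]
    rw [hD.card_centralizer_t, hcardT] at h4
    norm_num at h4
  have hconj : ∀ s : T, orderOf s = 2 → IsConj t s := fun s hs => (hall t h2).symm.trans (hall s hs)
  set f := fx A (MulAut.conj t) with hf
  set n := A.index with hn
  have hsm : f ^ 6 < n := small' h hna ht h2
  have hbig : 729 < n := h.big
  -- the index of the centralizer
  have hidx : (centralizer ({t} : Set T)).index = 26163 := by
    have h3 := (centralizer ({t} : Set T)).card_mul_index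
    rw [hD.card_centralizer_t, hcardT] at h3
    omega
  -- counting
  have hcount : ∀ S : Set T, (∀ s ∈ S, s ∈ A ∧ orderOf s = 2) → n * S.ncard ≤ f * 26163 := by
    intro S hS
    rw [← hidx]
    exact card_mul_le h hna ht h2 S fun s hs => ⟨(hS s hs).1, hconj s (hS s hs).2⟩
  have hrel := relIndex_le h hna ht h2 (le_refl (centralizer ({t} : Set T)))
  have hf0 : 0 < f := fx_pos A _
  have hf7 : f ≤ 7 := by
    have h3 := (IF.E2' h hna ht h2).2.2.1
    rw [hidx, ← hf] at h3
    by_contra h4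
    have : 8 ^ 5 ≤ f ^ 5 := Nat.pow_le_pow_left (by omega) 5
    omega
  -- `E ≤ A`
  have hE : ∀ x < 32, D x ∈ A := by
    obtain ⟨k, hk⟩ := card_E hD
    have h3 : E hD ≤ A.subgroupOf (centralizer ({t} : Set T)) :=
      normal_le hk (gen hD) (show (A.subgroupOf (centralizer ({t} : Set T))).index ≤ 7 from hrel.trans hf7)
    intro x hx
    exact h3 (show (⟨D x, cen hD (by omega)⟩ : centralizer ({t} : Set T)) ∈ E hD from ⟨x, hx, rfl⟩)
  have h11 := hcount {s : T | ∃ i < 32, s = D i ∧ orderOf s = 2} (by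
    rintro s ⟨i, hi, rfl, ho⟩
    exact ⟨hE i hi, ho⟩)
  rw [ncard_inv hD (by norm_num) cntE] at h11
  have hf4 : f ≤ 4 := by
    by_contra h4
    have h5 : 5 ≤ f := by omega
    interval_cases f <;> omega
  -- `C(t) ≤ A`
  have hC : A.subgroupOf (centralizer ({t} : Set T)) = ⊤ :=
    eq_top_of_index_lt (p := 5) (by norm_num) (gen hD)
      (show (A.subgroupOf (centralizer ({t} : Set T))).index < 5 from lt_of_le_of_lt (hrel.trans hf4) (by norm_num))
  have h131 := hcount {s : T | ∃ i < 1920, s = D i ∧ orderOf s = 2} (by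
    rintro s ⟨i, hi, rfl, ho⟩
    refine ⟨?_, ho⟩
    have : (⟨D i, cen hD hi⟩ : centralizer ({t} : Set T)) ∈ A.subgroupOf (centralizer ({t} : Set T)) := by
      rw [hC]; trivial
    exact this)
  rw [ncard_inv hD le_rfl cntC] at h131
  interval_cases f <;> omega

end row

end Cfsg.Agent.H90.Fxy.JThree
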