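import Cfsg.Agent.H90.Fxy.Tools
import Cfsg.Agent.H209.IF.Kill
import Cfsg.Agent.H680.IF.EngA
import Cfsg.Agent.KFacts.J2.Facts
import Cfsg.Agent.H1.J2Cover
import Cfsg.Agent.S1619

/-!
# S5719: the row `J₂`, `|A|` even (helper90)

2A in `A`: `n a = 315 f`, `f ≤ 3`, so `a = 1` and `C(t) ≤ A`, `n ≤ 315`. 2B in `A`: `f ≤ 4`, the elements of order 5 of `C(t)` are
in `A`, and they generate a group with an involution of the class 2A.
-/

set_option autoImplicit false
set_option maxRecDepth 100000
set_option linter.unusedSectionVars false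

namespace Cfsg.Agent.H90.Fxy.JTwo

open MulAction Subgroup Cfsg Cfsg.Agent.H209.Fxy Cfsg.Agent.H999.IFB Cfsg.Agent.H90.Fxy
open Cfsg.Agent.SporadicA.J2Hundred Cfsg.Agent.J2.HundredGens Cfsg.Agent.H1.J2Cls Cfsg.Agent.H1.J2Cover

section gen

variable {T : Type*} [Group T] [Finite T]

theorem card_cent_aut (σ : MulAut T) (x : T) :
    Nat.card (centralizer ({σ x} : Set T)) = Nat.card (centralizer ({x} : Set T)) := by
  refine (Nat.card_congr (Equiv.subtypeEquiv σ.toEquiv fun z => ?_)).symm
  rw [mem_centralizer_singleton_iff, mem_centralizer_singleton_iff]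
  constructor
  · intro h
    show σ z * σ x = σ x * σ z
    rw [← map_mul, h, map_mul]
  · intro h
    have h1 : σ z * σ x = σ x * σ z := h
    rw [← map_mul, ← map_mul] at h1
    exact σ.injective h1

theorem index_aut (σ : MulAut T) (x : T) :
    (centralizer ({σ x} : Set T)).index = (centralizer ({x} : Set T)).index := by
  have h1 := (centralizer ({σ x} : Set T)).card_mul_index
  have h2 := (centralizer ({x} : Set T)).card_mul_index
  rw [card_cent_aut, ← h2] at h1
  exact Nat.eq_of_mul_eq_mul_left Nat.card_pos h1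

theorem index_conj {x y : T} (h : IsConj x y) : (centralizer ({y} : Set T)).index = (centralizer ({x} : Set T)).index := by
  obtain ⟨c, rfl⟩ := isConj_iff.1 h
  exact index_aut (MulAut.conj c) x

/-- the index of the centralizer is bounded by every set which contains the class -/
theorem index_le {x : T} {S : Set T} (hS : ∀ g : T, g * x * g⁻¹ ∈ S) :
    (centralizer ({x} : Set T)).index ≤ S.ncard := by
  have h1 : (centralizer ({x} : Set T)).index = Nat.card (T ⧸ centralizer ({x} : Set T)) := rfl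
  rw [h1]
  let φ : (T ⧸ centralizer ({x} : Set T)) → S := fun c => Quotient.liftOn' c (fun g => ⟨g * x * g⁻¹, hS g⟩) (by
    intro a b hab
    rw [QuotientGroup.leftRel_apply, mem_centralizer_singleton_iff] at hab
    apply Subtype.ext
    show a * x * a⁻¹ = b * x * b⁻¹
    have h2 : b * x * b⁻¹ = a * (a⁻¹ * b * x) * b⁻¹ := by group
    rw [h2, hab]
    group)
  have hφ : Function.Injective φ := by
    intro c c' hcc
    induction c using QuotientGroup.induction_on with
    | H a =>
      induction c' using QuotientGroup.induction_on with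
      | H b =>
        have h3 : a * x * a⁻¹ = b * x * b⁻¹ := congrArg Subtype.val hcc
        rw [QuotientGroup.eq, mem_centralizer_singleton_iff]
        calc a⁻¹ * b * x = a⁻¹ * (b * x * b⁻¹) * b := by group
          _ = a⁻¹ * (a * x * a⁻¹) * b := by rw [h3]
          _ = x * (a⁻¹ * b) := by group
  exact Nat.card_le_card_of_injective φ hφ

end gen

/-! ### the words -/

theorem gw_eq {L M : List ℕ} (h : ∀ i < 4, run L (bs i) = run M (bs i)) : gw L = gw M :=
  Subtype.ext (pw_eq_of_base h)

/-- of order 10 -/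
def wg : List ℕ := [0, 1, 4]

theorem g10 : gw (wg ++ wg ++ wg ++ wg ++ wg ++ wg ++ wg ++ wg ++ wg ++ wg) = gw [] := gw_eq (by decide +kernel)
theorem ct : gw ([2] ++ (wg ++ wg ++ wg ++ wg ++ wg)) = gw ((wg ++ wg ++ wg ++ wg ++ wg) ++ [2]) :=
  gw_eq (by decide +kernel)
theorem ss : gw (wg ++ wg ++ ([2] ++ (wg ++ wg ++ wg ++ wg) ++ [2])) = gw ([1, 0, 2, 1] ++ [0] ++ [1, 2, 0, 1]) :=
  gw_eq (by decide +kernel)
theorem c2 : gw ([2] ++ [2]) = gw [] := gw_eq (by decide +kernel)
theorem d2 : gw ([0] ++ [0]) = gw [] := gw_eq (by decide +kernel)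

/-- the element of order 10 -/
noncomputable def g : G := gw wg
/-- the fixed point free involution -/
noncomputable def tB : G := g ^ 5

theorem g_pow : g ^ 10 = 1 := by
  have h := g10
  simp only [gw_append, gw_nil] at h
  rw [← h]
  simp only [g, pow_succ, pow_zero, one_mul]

theorem free : ∀ i : Fin 100, (tB : Equiv.Perm (Fin 100)) i ≠ i := by
  have h1 : tB = gw (wg ++ wg ++ wg ++ wg ++ wg) := by
    simp only [gw_append, tB, g, pow_succ, pow_zero, one_mul]
  intro i hi
  have h2 := pw_val (wg ++ wg ++ wg ++ wg ++ wg) i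
  have h3 : pw (wg ++ wg ++ wg ++ wg ++ wg) i = i := by
    have h4 : (tB : Equiv.Perm (Fin 100)) = pw (wg ++ wg ++ wg ++ wg ++ wg) := by rw [h1]; rfl
    rw [← h4]; exact hi
  rw [h3] at h2
  have key : Cfsg.Agent.SporadicA.PermTab.allB (fun i => not (Nat.beq i (run (wg ++ wg ++ wg ++ wg ++ wg) i))) 100 = true := by
    decide +kernel
  have h5 := (Cfsg.Agent.SporadicA.PermTab.allB_iff _ _).1 key i i.2
  rw [← h2, Nat.beq_refl] at h5
  exact Bool.noConfusion h5

theorem fixd : ((gw [0] : G) : Equiv.Perm (Fin 100)) 4 = 4 := by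
  apply Fin.ext
  have h := pw_val [0] 4
  rw [show ((gw [0] : G) : Equiv.Perm (Fin 100)) = pw [0] from rfl, h]
  decide +kernel

theorem not_conj : ¬ IsConj (gw [0]) tB := by
  intro h
  obtain ⟨c, hc⟩ := isConj_iff.1 h
  apply free ((c : Equiv.Perm (Fin 100)) 4)
  rw [← hc]
  show (c : Equiv.Perm (Fin 100)) (((gw [0] : G) : Equiv.Perm (Fin 100)) ((c : Equiv.Perm (Fin 100))⁻¹
    ((c : Equiv.Perm (Fin 100)) 4))) = _
  rw [show (c : Equiv.Perm (Fin 100))⁻¹ ((c : Equiv.Perm (Fin 100)) 4) = 4 from Equiv.symm_apply_apply _ _, fixd]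

theorem orderOf_d : orderOf (gw [0]) = 2 := by
  have : Fact (Nat.Prime 2) := ⟨Nat.prime_two⟩
  refine orderOf_eq_prime ?_ gw_zero_ne
  have h := d2
  rw [gw_append, gw_nil] at h
  rw [pow_two, h]

theorem tB_ne : tB ≠ 1 := by
  intro h
  apply free 0
  rw [h]; rfl

theorem orderOf_tB : orderOf tB = 2 := by
  have : Fact (Nat.Prime 2) := ⟨Nat.prime_two⟩
  refine orderOf_eq_prime ?_ tB_ne
  rw [tB, ← pow_mul]
  exact g_pow

/-- elements of order five -/
noncomputable def x5 : G := g ^ 2

theorem orderOf_x : orderOf x5 = 5 := by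
  have : Fact (Nat.Prime 5) := ⟨by norm_num⟩
  refine orderOf_eq_prime ?_ ?_
  · rw [x5, ← pow_mul]; exact g_pow
  · intro h
    apply tB_ne
    -- g² = 1 and g^10 = 1: g^5 = g; then g has fixed points? use `s`
    exfalso
    have h1 := ss
    simp only [gw_append] at h1
    have hx : gw wg * gw wg = 1 := by rw [← pow_two]; exact h
    have hc : gw [2] * gw [2] = 1 := by
      have := c2; rwa [gw_append, gw_nil] at this
    have h2 : gw wg * gw wg * (gw [2] * (gw wg * gw wg * gw wg * gw wg) * gw [2]) = 1 := by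
      have h3 : gw wg * gw wg * gw wg * gw wg = 1 := by
        rw [mul_assoc (gw wg * gw wg), hx, one_mul]
      rw [h3, hx, mul_one, one_mul, hc]
    rw [h2] at h1
    have hr : gw [1, 2, 0, 1] = (gw [1, 0, 2, 1])⁻¹ := by rw [← gw_reverse]; rfl
    rw [hr] at h1
    apply gw_zero_ne
    calc gw [0] = (gw [1, 0, 2, 1])⁻¹ * (gw [1, 0, 2, 1] * gw [0] * (gw [1, 0, 2, 1])⁻¹) * gw [1, 0, 2, 1] := by group
      _ = 1 := by rw [← h1]; group

theorem comm_x : x5 * tB = tB * x5 := by
  rw [x5, tB, ← pow_add, ← pow_add]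

/-- the second element of order five -/
noncomputable def y5 : G := gw [2] * x5 * (gw [2])⁻¹

theorem orderOf_y : orderOf y5 = 5 := by
  have : orderOf (MulAut.conj (gw [2]) x5) = orderOf x5 := MulEquiv.orderOf_eq _ _
  rw [MulAut.conj_apply] at this
  rw [y5, this, orderOf_x]

theorem comm_c : gw [2] * tB = tB * gw [2] := by
  have h := ct
  simp only [gw_append] at h
  have e : tB = gw wg * gw wg * gw wg * gw wg * gw wg := by
    simp only [tB, g, pow_succ, pow_zero, one_mul]
  rw [e]
  exact h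

theorem comm_y : y5 * tB = tB * y5 := by
  have h1 : Commute (gw [2]) tB := comm_c
  have h2 : Commute x5 tB := comm_x
  exact (h1.mul_left h2).mul_left h1.inv_left

theorem s_eq : x5 * (y5 * y5) = gw [1, 0, 2, 1] * gw [0] * (gw [1, 0, 2, 1])⁻¹ := by
  have h1 := ss
  simp only [gw_append] at h1
  have hr : gw [1, 2, 0, 1] = (gw [1, 0, 2, 1])⁻¹ := by rw [← gw_reverse]; rfl
  have hc : (gw [2])⁻¹ = gw [2] := gw_single_inv 2
  rw [hr] at h1
  rw [← h1, y5, x5, hc]
  have hcc : gw [2] * gw [2] = 1 := by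
    have := c2; rwa [gw_append, gw_nil] at this
  calc g ^ 2 * (gw [2] * g ^ 2 * gw [2] * (gw [2] * g ^ 2 * gw [2]))
      = g ^ 2 * (gw [2] * g ^ 2 * (gw [2] * gw [2]) * g ^ 2 * gw [2]) := by group
    _ = g ^ 2 * (gw [2] * g ^ 2 * 1 * g ^ 2 * gw [2]) := by rw [hcc]
    _ = g * g * (gw [2] * (g * g * g * g) * gw [2]) := by simp only [pow_two, mul_one, mul_assoc]
    _ = _ := rfl

/-! ### the row -/

theorem ncard_DS : (DS : Set G).ncard ≤ 315 := by
  have h1 : (DS : Set G) ⊆ (fun q => gw (dL q)) '' ((Finset.range 315 : Finset ℕ) : Set ℕ) := by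
    rintro d ⟨q, hq, hd⟩
    exact ⟨q, by simpa using hq, hd.symm⟩
  calc (DS : Set G).ncard ≤ ((fun q => gw (dL q)) '' ((Finset.range 315 : Finset ℕ) : Set ℕ)).ncard :=
        Set.ncard_le_ncard h1 (Set.toFinite _)
    _ ≤ ((Finset.range 315 : Finset ℕ) : Set ℕ).ncard := Set.ncard_image_le (Finset.finite_toSet _)
    _ = 315 := by rw [Set.ncard_coe_finset, Finset.card_range]

theorem killE_G : KillE G := by
  have hs : IsSimpleGroup G := simple
  have iso : Spor.IsoJ2 G := by
    obtain ⟨f⟩ := J2_iso Cfsg.Agent.S1619.result.2.2.2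
    exact ⟨f.symm⟩
  obtain ⟨t, u, Q, v, ρ, D⟩ := Cfsg.Agent.KFacts.J2.Facts.exists_dat_of (X := G) iso
  have hit : (centralizer ({t} : Set G)).index = 315 := D.index
  have hiu : (centralizer ({u} : Set G)).index = 2520 := by
    have h1 := (centralizer ({u} : Set G)).card_mul_index
    rw [D.card_cent_u, D.card] at h1
    omega
  have hna : ∃ a b : G, a * b ≠ b * a := by
    by_contra hcon
    push Not at hcon
    have : centralizer ({t} : Set G) = ⊤ := by
      rw [eq_top_iff]
      intro x _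
      rw [mem_centralizer_singleton_iff]
      exact hcon x t
    rw [this, index_top] at hit
    omega
  -- `gw [0]` is in the class of `t`
  have hd : IsConj t (gw [0]) := by
    rcases D.F.cover _ orderOf_d with h | h
    · exact h
    · exfalso
      have h1 := index_conj h
      have h2 := index_le (x := gw [0]) (S := DS) fun c => conj_DS c zero_mem
      have h3 := ncard_DS
      omega
  have hB : IsConj u tB := by
    rcases D.F.cover _ orderOf_tB with h | h
    · exact absurd (hd.symm.trans h) not_conj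
    · exact h
  rintro A Γ h ⟨s, hs, h2⟩
  set n := A.index with hn
  have hbig : 729 < n := h.big
  -- the class of `t`
  have keyA : ∀ s ∈ A, orderOf s = 2 → ¬ IsConj t s := by
    intro s hs h2 hc
    have hidx : (centralizer ({s} : Set G)).index = 315 := by rw [index_conj hc, hit]
    set f := fx A (MulAut.conj s) with hf
    have hsm : f ^ 6 < n := small' h hna hs h2
    have hf3 : f ≤ 3 := by
      have h3 := (IF.E2' h hna hs h2).2.2.1
      rw [hidx, ← hf] at h3
      by_contra h4
      have : 4 ^ 5 ≤ f ^ 5 := Nat.pow_le_pow_left (by omega) 5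
      omega
    have huniq : ∀ r ∈ A, IsConj s r → r = s := by
      intro r hr hcr
      by_contra hne
      have h3 := card_mul_le h hna hs h2 {s, r} (by
        intro x hx
        rcases hx with rfl | rfl
        · exact ⟨hs, IsConj.refl _⟩
        · exact ⟨hr, hcr⟩)
      rw [Set.ncard_pair (Ne.symm hne), hidx, ← hf] at h3
      have : f * 315 ≤ 3 * 315 := Nat.mul_le_mul_right _ hf3
      omega
    have hinv : ∀ σ ∈ Γ, σ s = s := by
      intro σ hσ
      have h3 : σ s ∈ A := (h.inv σ hσ s).2 hs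
      have h4 : orderOf (σ s) = 2 := by rw [MulEquiv.orderOf_eq, h2]
      have h5 := index_aut σ s
      rw [hidx] at h5
      rcases D.F.cover _ h4 with h6 | h6
      · exact huniq _ h3 (hc.symm.trans h6)
      · have h7 := index_conj h6
        omega
    have hC : centralizer ({s} : Set G) ≤ A := by
      intro x hx
      rw [mem_centralizer_singleton_iff] at hx
      refine Cfsg.Agent.H680.Fxy.IF.norm h (K := zpowers s) (by rw [zpowers_le]; exact hs) ?_ ?_ ?_
      · rintro σ hσ k ⟨m, rfl⟩
        exact ⟨m, by show s ^ m = σ (s ^ m); rw [map_zpow, hinv σ hσ]⟩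
      · intro h3
        rw [zpowers_eq_bot] at h3
        rw [h3, orderOf_one] at h2
        omega
      · rintro k ⟨m, rfl⟩
        have h3 : Commute x (s ^ m) := Commute.zpow_right hx m
        refine ⟨m, ?_⟩
        show s ^ m = x * s ^ m * x⁻¹
        rw [h3.eq, mul_inv_cancel_right]
    have h5 : A.index ∣ (centralizer ({s} : Set G)).index := index_dvd_of_le hC
    rw [hidx] at h5
    have := Nat.le_of_dvd (by norm_num) h5
    omega
  rcases D.F.cover s h2 with hc | hc
  · exact keyA s hs h2 hc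
  · -- the class of `u`
    obtain ⟨c, hc⟩ := isConj_iff.1 (hB.symm.trans hc)
    have hidx : (centralizer ({s} : Set G)).index = 2520 := by
      rw [← hiu, ← index_conj hB, ← index_conj (isConj_iff.2 ⟨c, hc⟩)]
    have hrel := relIndex_le h hna hs h2 (le_refl (centralizer ({s} : Set G)))
    have hf4 : fx A (MulAut.conj s) ≤ 4 := by
      have h3 := (IF.E2' h hna hs h2).2.2.1
      rw [hidx] at h3
      by_contra h4
      have : 5 ^ 5 ≤ fx A (MulAut.conj s) ^ 5 := Nat.pow_le_pow_left (by omega) 5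
      omega
    have h5 : ∀ x : G, x * tB = tB * x → orderOf x = 5 → c * x * c⁻¹ ∈ A := by
      intro x hx ho
      refine mem_of_relIndex_lt (p := 5) (by norm_num) (lt_of_le_of_lt (hrel.trans hf4) (by norm_num)) ?_ ?_
      · rw [mem_centralizer_singleton_iff, ← hc]
        calc c * x * c⁻¹ * (c * tB * c⁻¹) = c * (x * tB) * c⁻¹ := by group
          _ = c * (tB * x) * c⁻¹ := by rw [hx]
          _ = _ := by group
      · have : orderOf (MulAut.conj c x) = orderOf x := MulEquiv.orderOf_eq _ _
        rw [MulAut.conj_apply] at this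
        rw [this, ho]
    have hx := h5 x5 comm_x orderOf_x
    have hy := h5 y5 comm_y orderOf_y
    have hsA : c * (x5 * (y5 * y5)) * c⁻¹ ∈ A := by
      have e : c * (x5 * (y5 * y5)) * c⁻¹ = (c * x5 * c⁻¹) * ((c * y5 * c⁻¹) * (c * y5 * c⁻¹)) := by group
      rw [e]
      exact mul_mem hx (mul_mem hy hy)
    have hcd : IsConj (gw [0]) (c * (x5 * (y5 * y5)) * c⁻¹) := by
      rw [s_eq]
      exact isConj_iff.2 ⟨c * gw [1, 0, 2, 1], by group⟩
    obtain ⟨k, hk⟩ := isConj_iff.1 hcd
    refine keyA _ hsA ?_ (hd.trans hcd)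
    rw [← hk]
    have : orderOf (MulAut.conj k (gw [0])) = orderOf (gw [0]) := MulEquiv.orderOf_eq _ _
    rw [MulAut.conj_apply] at this
    rw [this, orderOf_d]

theorem KillE_congr {T T' : Type*} [Group T] [Group T'] (e : T ≃* T') (h : KillE T) : KillE T' := by
  rintro A Γ hA ⟨t, ht, h2⟩
  refine h _ _ (hA.map e.symm) ⟨e.symm t, ⟨t, ht, rfl⟩, ?_⟩
  rw [MulEquiv.orderOf_eq, h2]

/-- **S5719, the row `J₂`, `|A|` even.** -/
theorem killE {T : Type*} [Group T] (hJ : Spor.IsoJ2 T) : KillE T := by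
  obtain ⟨e⟩ := hJ
  obtain ⟨f⟩ := J2_iso Cfsg.Agent.S1619.result.2.2.2
  exact KillE_congr (f.symm.trans e.symm) killE_G

end Cfsg.Agent.H90.Fxy.JTwo
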