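import Cfsg.Agent.H999.IF.EngB

/-!
# S5719: tools for the sporadic rows (helper90)

* `card_mul_le` : `n |S| ≤ f |t^T|` for a set `S` of conjugates of `t` in `A`;
* `mem_of_relIndex_lt` : elements of prime order `p` of `B` are in `A` if `|B : B ∩ A| < p`;
* `le_of_gen` : `B ≤ A` if `|B : B ∩ A| < p` and `B` is generated by its elements of order `p`;
* `normal_le` : a normal subgroup of `2`-power order is contained in every subgroup of index at most 7, in a group generated by its
  elements of order 5.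
-/

set_option autoImplicit false
set_option linter.unusedSectionVars false

namespace Cfsg.Agent.H90.Fxy

open MulAction Subgroup Cfsg.Agent.H209.Fxy Cfsg.Agent.H999.IFB

section gen

variable {G : Type*} [Group G] [Finite G]

/-- an element of prime order larger than the index lies in the subgroup -/
theorem mem_of_index_lt {H : Subgroup G} {p : ℕ} (hp : p.Prime) (hH : H.index < p) {x : G} (hx : orderOf x = p) :
    x ∈ H := by
  -- two of the cosets `x^i H`, `i < p`, are equal
  have hfin : Finite (G ⧸ H) := inferInstance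
  obtain ⟨i, j, hij, he⟩ : ∃ i j : Fin p, i ≠ j ∧ ((x ^ (i : ℕ) : G) : G ⧸ H) = ((x ^ (j : ℕ) : G) : G ⧸ H) := by
    by_contra hcon
    push Not at hcon
    have hinj : Function.Injective fun i : Fin p => ((x ^ (i : ℕ) : G) : G ⧸ H) := by
      intro i j hij
      by_contra hne
      exact hcon i j hne hij
    have := Nat.card_le_card_of_injective _ hinj
    rw [Nat.card_fin] at this
    have h2 : H.index = Nat.card (G ⧸ H) := rfl
    omega
  wlog hlt : (i : ℕ) < j generalizing i j
  · exact this j i hij.symm he.symm (lt_of_le_of_ne (not_lt.1 hlt) fun h => hij (Fin.ext h.symm))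
  rw [QuotientGroup.eq] at he
  have h1 : x ^ ((j : ℕ) - i) ∈ H := by
    have h2 : (x ^ (i : ℕ))⁻¹ * x ^ (j : ℕ) = x ^ ((j : ℕ) - i) := by
      rw [inv_mul_eq_iff_eq_mul, ← pow_add]
      congr 1
      omega
    rwa [h2] at he
  have h3 : Nat.Coprime ((j : ℕ) - i) p := by
    rw [Nat.coprime_comm, hp.coprime_iff_not_dvd]
    intro h4
    have := Nat.le_of_dvd (by omega) h4
    have := j.2
    omega
  have h5 : Nat.Coprime ((j : ℕ) - i) (orderOf x) := by rw [hx]; exact h3
  obtain ⟨m, hm⟩ := exists_pow_eq_self_of_coprime h5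
  rw [← hm]
  exact H.pow_mem h1 m

theorem eq_top_of_index_lt {p : ℕ} (hp : p.Prime) (hgen : ∀ H : Subgroup G, (∀ x, orderOf x = p → x ∈ H) → H = ⊤)
    {H : Subgroup G} (hH : H.index < p) : H = ⊤ :=
  hgen H fun _ hx => mem_of_index_lt hp hH hx

/-- **a normal subgroup of 2-power order is contained in every subgroup of index at most 7** -/
theorem normal_le {E : Subgroup G} [E.Normal] {k : ℕ} (hE : Nat.card E = 2 ^ k)
    (hgen : ∀ H : Subgroup G, (∀ x, orderOf x = 5 → x ∈ H) → H = ⊤) {B : Subgroup G} (hB : B.index ≤ 7) : E ≤ B := by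
  by_contra hcon
  have h1 : B < B ⊔ E := lt_of_le_of_ne le_sup_left fun h => hcon (h ▸ le_sup_right)
  -- the index of `B ⊔ E` is at most 3
  have h2 : B.relIndex (B ⊔ E) * (B ⊔ E).index = B.index := Subgroup.relIndex_mul_index le_sup_left
  have h3 : B.relIndex (B ⊔ E) ≠ 1 := by
    rw [Ne, Subgroup.relIndex_eq_one]
    intro h
    exact absurd h (not_le_of_gt h1)
  have h4 : B.relIndex (B ⊔ E) ≠ 0 := by
    intro h
    rw [h, zero_mul] at h2
    exact Subgroup.index_ne_zero_of_finite h2.symm
  have h5 : (B ⊔ E).index < 5 := by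
    have : 2 * (B ⊔ E).index ≤ B.index := by
      rw [← h2]
      exact Nat.mul_le_mul_right _ (by omega)
    omega
  have h6 : B ⊔ E = ⊤ := eq_top_of_index_lt (by norm_num) hgen h5
  -- `|G : B| = |E : E ∩ B|`
  have h7 : E.relIndex B = E.index := by
    have h8 : E.relIndex (B ⊔ E) = E.relIndex B := Subgroup.relIndex_sup_right B E
    rw [h6, Subgroup.relIndex_top_right] at h8
    exact h8.symm
  have h8 : (B ⊓ E).relIndex E * E.index = (B ⊓ E).index := Subgroup.relIndex_mul_index inf_le_right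
  have h9 : (B ⊓ E).relIndex B * B.index = (B ⊓ E).index := Subgroup.relIndex_mul_index inf_le_left
  have h10 : (B ⊓ E).relIndex B = E.relIndex B := Subgroup.inf_relIndex_left B E
  have h11 : (B ⊓ E).relIndex E = B.relIndex E := Subgroup.inf_relIndex_right B E
  rw [h10, h7] at h9
  rw [h11] at h8
  have h12 : B.relIndex E = B.index := by
    have h13 : 0 < E.index := Nat.pos_of_ne_zero Subgroup.index_ne_zero_of_finite
    apply Nat.eq_of_mul_eq_mul_right h13
    rw [h8, ← h9, mul_comm]
  have h13 : B.relIndex E ∣ 2 ^ k := by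
    rw [← hE]
    exact (B.subgroupOf E).index_dvd_card
  rw [h12] at h13
  obtain ⟨j, -, hj⟩ := (Nat.dvd_prime_pow Nat.prime_two).1 h13
  have h14 : B.index < 5 := by
    rw [hj] at hB ⊢
    have : j < 3 := by
      by_contra h
      have : 2 ^ 3 ≤ 2 ^ j := Nat.pow_le_pow_right (by norm_num) (not_lt.1 h)
      omega
    interval_cases j <;> norm_num
  apply hcon
  rw [eq_top_of_index_lt (by norm_num) hgen h14]
  exact le_top

end gen

variable {T : Type*} [Group T] [Finite T] {A : Subgroup T} {Γ : Subgroup (MulAut T)}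

/-- **`n |S| ≤ f |t^T|`** -/
theorem card_mul_le [IsSimpleGroup T] (h : IF A Γ) (hna : ∃ a b : T, a * b ≠ b * a) {t : T} (ht : t ∈ A)
    (h2 : orderOf t = 2) (S : Set T) (hS : ∀ s ∈ S, s ∈ A ∧ IsConj t s) :
    A.index * S.ncard ≤ fx A (MulAut.conj t) * (centralizer ({t} : Set T)).index := by
  have hσ : MulAut.conj t ∈ Γ := (h.conj t).2 ht
  have h1 := IF.fix_formula' h hσ
  rw [(IF.E2' h hna ht h2).2.1] at h1
  rw [h1]
  apply Nat.mul_le_mul_left
  have hinj : Function.Injective (MulAut.conj : T →* MulAut T) := by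
    rw [injective_iff_map_eq_one]
    intro z hz
    apply center_of hna
    intro x
    have h3 := congrArg (fun τ : MulAut T => τ x) hz
    simp only [MulAut.conj_apply, MulAut.one_apply] at h3
    rwa [mul_inv_eq_iff_eq_mul] at h3
  rw [← Set.ncard_image_of_injective S hinj]
  apply Set.ncard_le_ncard _ (Set.toFinite _)
  rintro _ ⟨s, hs, rfl⟩
  obtain ⟨hsA, hc⟩ := hS s hs
  obtain ⟨c, hc⟩ := isConj_iff.1 hc
  refine ⟨⟨c, ?_⟩, (h.conj s).2 hsA⟩
  rw [← hc, map_mul, map_mul, map_inv]

/-- elements of prime order larger than the index -/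
theorem mem_of_relIndex_lt {B : Subgroup T} {p : ℕ} (hp : p.Prime) (hB : A.relIndex B < p) {x : T} (hxB : x ∈ B)
    (hx : orderOf x = p) : x ∈ A := by
  have h1 : (⟨x, hxB⟩ : B) ∈ A.subgroupOf B :=
    mem_of_index_lt hp hB (by rw [← orderOf_coe]; exact hx)
  exact h1

/-- the fixity bounds the index of `C_A(t)` -/
theorem relIndex_le [IsSimpleGroup T] (h : IF A Γ) (hna : ∃ a b : T, a * b ≠ b * a) {t : T} (ht : t ∈ A)
    (h2 : orderOf t = 2) {B : Subgroup T} (hB : B ≤ centralizer ({t} : Set T)) :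
    A.relIndex B ≤ fx A (MulAut.conj t) := by
  have hσ : MulAut.conj t ∈ Γ := (h.conj t).2 ht
  have ho : orderOf (MulAut.conj t) = 2 := by rw [orderOf_conj hna, h2]
  refine (IF.E1 h hσ ho (B := B) fun b hb => ?_).1
  have := Subgroup.mem_centralizer_singleton_iff.1 (hB hb)
  rw [MulAut.conj_apply, mul_inv_eq_iff_eq_mul]
  exact this.symm

theorem small' [IsSimpleGroup T] (h : IF A Γ) (hna : ∃ a b : T, a * b ≠ b * a) {t : T} (ht : t ∈ A)
    (h2 : orderOf t = 2) : fx A (MulAut.conj t) ^ 6 < A.index :=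
  h.small _ ((h.conj t).2 ht) (by rw [orderOf_conj hna, h2])

end Cfsg.Agent.H90.Fxy
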